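import Cfsg.Agent.H721.FR.Base

/-!
# The Cayley transform of a unipotent isometry (helper904, S4970, piece UNI)
-/

set_option autoImplicit false

universe u

namespace Cfsg.Agent.H904.FR

open Cfsg Cfsg.Agent.H955.FS Cfsg.Agent.H721.FR Module

variable {F V : Type u} [Field F] [AddCommGroup V] [Module F V]

/-- `N` is the Cayley transform of `c` -/
structure Cay (c : V ≃ₗ[F] V) (N : V →ₗ[F] V) : Prop where
  nil : IsNilpotent N
  comm : ∀ x, N (c x) = c (N x)
  eq : ∀ x, N (c x + x) = c x - x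

theorem exists_cay (h2 : (2 : F) ≠ 0) [Finite F] {c : V ≃ₗ[F] V} (hu : ∃ a : ℕ, c ^ (ringChar F) ^ a = 1) :
    ∃ N : V →ₗ[F] V, Cay c N := by
  rcases subsingleton_or_nontrivial V with hV | hV
  · exact ⟨0, ⟨1, by rw [pow_one]⟩, fun x => Subsingleton.elim _ _, fun x => Subsingleton.elim _ _⟩
  obtain ⟨a, ha⟩ := hu
  set p := ringChar F with hp
  have hchF : CharP F p := ringChar.charP F
  have hprime : Fact p.Prime := ⟨(CharP.char_is_prime_or_zero F p).resolve_right fun h => by
    have h1 : CharP F 0 := h ▸ hchF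
    have := CharP.charP_to_charZero F
    exact not_finite F⟩
  have hch : CharP (Module.End F V) p :=
    charP_of_injective_algebraMap (FaithfulSMul.algebraMap_injective F (Module.End F V)) p
  let c' : Module.End F V := (c : V →ₗ[F] V)
  have hc' : ∀ x, c' x = c x := fun x => rfl
  have hcpow : ∀ n : ℕ, c' ^ n = ((c ^ n : V ≃ₗ[F] V) : V →ₗ[F] V) := by
    intro n
    induction n with
    | zero => rfl
    | succ n ih =>
      rw [pow_succ, ih, pow_succ]
      rfl
  have h1 : (c' - 1) ^ p ^ a = 0 := by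
    rw [sub_pow_char_pow_of_commute _ _ (Commute.one_right c'), one_pow, hcpow, ha]
    exact sub_self _
  have hnil : IsNilpotent (c' - 1) := ⟨_, h1⟩
  have h2' : IsUnit (2 : Module.End F V) := by
    have : (2 : Module.End F V) = algebraMap F (Module.End F V) 2 := by
      rw [map_ofNat]
    rw [this]
    exact (IsUnit.mk0 _ h2).map _
  have hunit : IsUnit (c' + 1) := by
    have h3 : c' + 1 = 2 + (c' - 1) := by
      rw [← one_add_one_eq_two]
      abel
    rw [h3]
    exact IsNilpotent.isUnit_add_left_of_commute hnil h2' (by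
      rw [← one_add_one_eq_two]
      exact (Commute.one_right _).add_right (Commute.one_right _))
  obtain ⟨u, hu⟩ := hunit
  have hcomm1 : Commute c' (c' + 1) := (Commute.refl c').add_right (Commute.one_right _)
  have hcomm2 : Commute c' (↑u⁻¹ : Module.End F V) := by
    rw [← hu] at hcomm1
    exact hcomm1.units_inv_right
  have hcomm3 : Commute (c' - 1) (↑u⁻¹ : Module.End F V) := hcomm2.sub_left (Commute.one_left _)
  refine ⟨(c' - 1) * ↑u⁻¹, ?_, fun x => ?_, fun x => ?_⟩
  · exact hcomm3.isNilpotent_mul_right hnil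
  · have h4 : Commute ((c' - 1) * ↑u⁻¹) c' :=
      ((Commute.refl c').sub_left (Commute.one_left _)).mul_left hcomm2.symm
    exact LinearMap.congr_fun h4.eq x
  · have h5 : ((c' - 1) * ↑u⁻¹) * (c' + 1) = c' - 1 := by
      rw [← hu, mul_assoc, Units.inv_mul, mul_one]
    exact LinearMap.congr_fun h5 x

section

variable {c : V ≃ₗ[F] V} {N : V →ₗ[F] V} (h2 : (2 : F) ≠ 0) (h : Cay c N)

include h

theorem Cay.eq' (x : V) : c x - N (c x) = x + N x := by
  have h1 := h.eq x
  rw [map_add, ← sub_eq_zero] at h1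
  rw [← sub_eq_zero, ← neg_eq_zero, ← h1]
  abel

include h2 in
theorem Cay.exists_eq (x : V) : ∃ u, x = c u + u := by
  refine ⟨(2 : F)⁻¹ • (x - N x), ?_⟩
  rw [map_smul, ← smul_add, map_sub, ← h.comm, h.eq']
  rw [show x + N x + (x - N x) = (2 : F) • x by rw [two_smul]; abel, smul_smul, inv_mul_cancel₀ h2, one_smul]

theorem Cay.eq_zero {x : V} (hx : N x = x) : x = 0 := by
  obtain ⟨k, hk⟩ := h.nil
  have h1 : ∀ n : ℕ, (N ^ n) x = x := by
    intro n
    induction n with
    | zero => rfl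
    | succ n ih =>
      rw [pow_succ, Module.End.mul_apply, hx, ih]
  rw [← h1 k, hk]
  rfl

theorem Cay.inj {x y : V} (hxy : x - N x = y - N y) : x = y := by
  rw [← sub_eq_zero]
  apply h.eq_zero
  rw [map_sub]
  rw [← sub_eq_zero] at hxy ⊢
  rw [← neg_eq_zero, ← hxy]
  abel

theorem Cay.ne_zero (hc : c ≠ 1) : N ≠ 0 := by
  rintro rfl
  apply hc
  refine LinearEquiv.ext fun x => ?_
  have h1 := h.eq' x
  rwa [LinearMap.zero_apply, sub_zero, LinearMap.zero_apply, add_zero] at h1

include h2 in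
theorem Cay.skew {B : V →ₗ[F] V →ₗ[F] F} (hc : c ∈ Isom B) (x y : V) : B (N x) y = - B x (N y) := by
  obtain ⟨u, rfl⟩ := h.exists_eq h2 x
  obtain ⟨v, rfl⟩ := h.exists_eq h2 y
  rw [h.eq, h.eq]
  simp only [map_add, map_sub, LinearMap.add_apply, LinearMap.sub_apply]
  rw [mem_isom.1 hc]
  ring

include h2 in
theorem Cay.of_comm {g : V ≃ₗ[F] V} (hg : g * c * g⁻¹ = c) (x : V) : N (g x) = g (N x) := by
  obtain ⟨u, rfl⟩ := h.exists_eq h2 x
  have h1 : g (c u) = c (g u) := by
    have h3 : g * c = c * g := by rwa [mul_inv_eq_iff_eq_mul] at hg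
    exact LinearEquiv.congr_fun h3 u
  rw [map_add, h1, h.eq, h.eq, map_sub, h1]

include h2 in
theorem Cay.of_inv {g : V ≃ₗ[F] V} (hg : g * c * g⁻¹ = c⁻¹) (x : V) : N (g x) = - g (N x) := by
  obtain ⟨u, rfl⟩ := h.exists_eq h2 x
  have h1 : c (g (c u)) = g u := by
    have h3 : c * (g * c) = g := by
      rw [mul_inv_eq_iff_eq_mul] at hg
      rw [hg, mul_inv_cancel_left]
    exact LinearEquiv.congr_fun h3 u
  have h4 := h.eq (g (c u))
  rw [h1] at h4
  rw [map_add, add_comm, h4, h.eq, map_sub, neg_sub]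

theorem Cay.comm_of {g : V ≃ₗ[F] V} (hg : ∀ x, N (g x) = g (N x)) : g * c * g⁻¹ = c := by
  rw [mul_inv_eq_iff_eq_mul]
  refine LinearEquiv.ext fun x => h.inj ?_
  show g (c x) - N (g (c x)) = c (g x) - N (c (g x))
  rw [h.eq', hg, ← map_sub, h.eq', map_add, hg]

theorem Cay.inv_of {g : V ≃ₗ[F] V} (hg : ∀ x, N (g x) = - g (N x)) : g * c * g⁻¹ = c⁻¹ := by
  rw [mul_inv_eq_iff_eq_mul, eq_inv_mul_iff_mul_eq]
  refine LinearEquiv.ext fun x => h.inj ?_
  show c (g (c x)) - N (c (g (c x))) = g x - N (g x)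
  rw [h.eq', hg, hg, ← sub_eq_add_neg, ← map_sub, h.eq', map_add, sub_neg_eq_add]

/-- an `N`-invariant subspace is `c`-invariant -/
theorem Cay.map_eq [FiniteDimensional F V] {U : Submodule F V} (hU : ∀ x ∈ U, N x ∈ U) :
    U.map (c : V →ₗ[F] V) = U := by
  let f : U →ₗ[F] U := LinearMap.id - N.restrict hU
  have hf : Function.Injective f := by
    intro x y hxy
    have h1 := congrArg Subtype.val hxy
    exact Subtype.ext (h.inj h1)
  have hs := LinearMap.surjective_of_injective hf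
  have hle : U.map (c : V →ₗ[F] V) ≤ U := by
    rintro _ ⟨x, hx, rfl⟩
    obtain ⟨u, hu⟩ := hs ⟨x + N x, U.add_mem hx (hU x hx)⟩
    have h1 : (u : V) - N u = x + N x := congrArg Subtype.val hu
    have h3 : (c : V →ₗ[F] V) x = u := by
      apply h.inj
      rw [h1]
      exact h.eq' x
    rw [h3]
    exact u.2
  exact Submodule.eq_of_le_of_finrank_eq hle (LinearEquiv.finrank_map_eq c U)

end

end Cfsg.Agent.H904.FR
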