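import Cfsg.Agent.H904.FR.Struct

/-!
# Lifting automorphisms of `M` to `V = ⊕ N ^ i M` (helper904, S4970, piece UNI)
-/

set_option autoImplicit false

universe u

namespace Cfsg.Agent.H904.FR

open Cfsg Cfsg.Agent.H955.FS Cfsg.Agent.H721.FR Cfsg.Agent.H721.SR Module

variable {F V : Type u} [Field F] [AddCommGroup V] [Module F V]

/-- the map `f ↦ ∑ N ^ i (f i)` -/
noncomputable def Phi (N : V →ₗ[F] V) (k : ℕ) (M : Submodule F V) : (Fin (k + 1) → M) →ₗ[F] V :=
  ∑ i : Fin (k + 1), (N ^ (i : ℕ)) ∘ₗ M.subtype ∘ₗ LinearMap.proj i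

theorem Phi_apply (N : V →ₗ[F] V) (k : ℕ) (M : Submodule F V) (f : Fin (k + 1) → M) :
    Phi N k M f = ∑ i : Fin (k + 1), (N ^ (i : ℕ)) (f i : V) := by
  unfold Phi
  rw [LinearMap.sum_apply]
  rfl

theorem Phi_single (N : V →ₗ[F] V) (k : ℕ) (M : Submodule F V) (i : Fin (k + 1)) (x : M) :
    Phi N k M (Pi.single i x) = (N ^ (i : ℕ)) (x : V) := by
  rw [Phi_apply, Finset.sum_eq_single i]
  · rw [Pi.single_eq_same]
  · intro j _ hj
    rw [Pi.single_eq_of_ne hj]
    exact map_zero _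
  · exact fun h => absurd (Finset.mem_univ i) h

section

variable {B : V →ₗ[F] V →ₗ[F] F} {N : V →ₗ[F] V} {k : ℕ} {M : Submodule F V}

theorem pow_mem_range (hN : N ^ (k + 1) = 0) (j : ℕ) {x : V} (hx : x ∈ M) : (N ^ j) x ∈ LinearMap.range (Phi N k M) := by
  rcases Nat.lt_or_ge k j with h | h
  · rw [pow_zero_of_lt hN h]
    exact zero_mem _
  · exact ⟨Pi.single ⟨j, by omega⟩ ⟨x, hx⟩, Phi_single N k M ⟨j, by omega⟩ ⟨x, hx⟩⟩

theorem Std.form (hS : Std B N k M) {x y : V} (hx : x ∈ M) (hy : y ∈ M) (i j : ℕ) (hij : i + j ≠ k) :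
    B ((N ^ i) x) ((N ^ j) y) = 0 := by
  rw [skew_pow hS.skew, ← Module.End.mul_apply, ← pow_add, hS.orth x hx y hy _ hij, mul_zero]

theorem Std.form' (hS : Std B N k M) (x y : V) (i j : ℕ) (hij : i + j = k) :
    B ((N ^ i) x) ((N ^ j) y) = (-1) ^ i * B x ((N ^ k) y) := by
  rw [skew_pow hS.skew, ← Module.End.mul_apply, ← pow_add, hij]

theorem Std.coord (hS : Std B N k M) (f : Fin (k + 1) → M) (i : Fin (k + 1)) {y : V} (hy : y ∈ M) :
    B (Phi N k M f) ((N ^ (k - i)) y) = (-1) ^ (i : ℕ) * B (f i) ((N ^ k) y) := by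
  rw [Phi_apply, map_sum, LinearMap.sum_apply, Finset.sum_eq_single i]
  · exact hS.form' _ _ _ _ (by omega)
  · intro j _ hj
    refine hS.form (f j).2 hy _ _ fun h => hj (Fin.ext ?_)
    omega
  · exact fun h => absurd (Finset.mem_univ i) h

theorem Std.eq_zero (hS : Std B N k M) {f : Fin (k + 1) → M}
    (h : ∀ y ∈ LinearMap.range (Phi N k M), B (Phi N k M f) y = 0) : f = 0 := by
  funext i
  apply Subtype.ext
  refine hS.nd _ (f i).2 fun y hy => ?_
  have h1 := hS.coord f i hy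
  rw [h _ (pow_mem_range hS.nil _ hy)] at h1
  exact (mul_eq_zero.1 h1.symm).resolve_left (pow_ne_zero _ (neg_ne_zero.2 one_ne_zero))

theorem Std.injective (hS : Std B N k M) : Function.Injective (Phi N k M) := by
  rw [injective_iff_map_eq_zero]
  intro f hf
  apply hS.eq_zero
  intro y _
  rw [hf, map_zero, LinearMap.zero_apply]

theorem Std.ndOn (hS : Std B N k M) : NdOn B (LinearMap.range (Phi N k M)) := by
  rintro _ ⟨f, rfl⟩ h
  rw [hS.eq_zero h, map_zero]

theorem range_inv (hN : N ^ (k + 1) = 0) {x : V} (hx : x ∈ LinearMap.range (Phi N k M)) :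
    N x ∈ LinearMap.range (Phi N k M) := by
  obtain ⟨f, rfl⟩ := hx
  rw [Phi_apply, map_sum]
  refine Submodule.sum_mem _ fun i _ => ?_
  have h1 : N ((N ^ (i : ℕ)) (f i : V)) = (N ^ ((i : ℕ) + 1)) (f i : V) := by rw [pow_succ']; rfl
  rw [h1]
  exact pow_mem_range hN _ (f i).2

theorem range_map [FiniteDimensional F V] (hN : N ^ (k + 1) = 0) {g : V ≃ₗ[F] V} {θ : F} (hg : Th N g θ)
    (hθ : θ * θ = 1) {M' : Submodule F V} (hM : ∀ x ∈ M, g x ∈ M') (hr : finrank F (LinearMap.range (Phi N k M)) =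
    finrank F (LinearMap.range (Phi N k M'))) :
    (LinearMap.range (Phi N k M)).map (g : V →ₗ[F] V) = LinearMap.range (Phi N k M') := by
  have hle : (LinearMap.range (Phi N k M)).map (g : V →ₗ[F] V) ≤ LinearMap.range (Phi N k M') := by
    rintro _ ⟨_, ⟨f, rfl⟩, rfl⟩
    rw [Phi_apply, map_sum]
    refine Submodule.sum_mem _ fun i _ => ?_
    have h1 : (g : V →ₗ[F] V) ((N ^ (i : ℕ)) (f i : V)) = θ ^ (i : ℕ) • (N ^ (i : ℕ)) (g (f i : V)) := by
      rw [hg.pow, smul_smul, ← mul_pow, hθ, one_pow, one_smul]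
      rfl
    rw [h1]
    exact Submodule.smul_mem _ _ (pow_mem_range hN _ (hM _ (f i).2))
  exact Submodule.eq_of_le_of_finrank_eq hle ((LinearEquiv.finrank_map_eq g _).trans hr)

/-- the subgroup of elements fixing or interchanging `U` and `W` -/
def swp (U W : Submodule F V) : Subgroup (V ≃ₗ[F] V) where
  carrier := {g | (U.map (g : V →ₗ[F] V) = U ∧ W.map (g : V →ₗ[F] V) = W) ∨
    (U.map (g : V →ₗ[F] V) = W ∧ W.map (g : V →ₗ[F] V) = U)}
  mul_mem' := by
    have h : ∀ (a b : V ≃ₗ[F] V) (X : Submodule F V), X.map ((a * b : V ≃ₗ[F] V) : V →ₗ[F] V) =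
        (X.map (b : V →ₗ[F] V)).map (a : V →ₗ[F] V) := fun a b X => by
      rw [← Submodule.map_comp]
      rfl
    rintro a b (⟨h1, h2⟩ | ⟨h1, h2⟩) (⟨h3, h4⟩ | ⟨h3, h4⟩)
    · exact Or.inl ⟨by rw [h, h3, h1], by rw [h, h4, h2]⟩
    · exact Or.inr ⟨by rw [h, h3, h2], by rw [h, h4, h1]⟩
    · exact Or.inr ⟨by rw [h, h3, h1], by rw [h, h4, h2]⟩
    · exact Or.inl ⟨by rw [h, h3, h2], by rw [h, h4, h1]⟩
  one_mem' := Or.inl ⟨Submodule.map_id _, Submodule.map_id _⟩
  inv_mem' := by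
    have h : ∀ (a : V ≃ₗ[F] V) (X Y : Submodule F V), X.map (a : V →ₗ[F] V) = Y →
        Y.map ((a⁻¹ : V ≃ₗ[F] V) : V →ₗ[F] V) = X := fun a X Y hXY => by
      rw [← hXY, ← Submodule.map_comp]
      have : ((a⁻¹ : V ≃ₗ[F] V) : V →ₗ[F] V) ∘ₗ (a : V →ₗ[F] V) = LinearMap.id := by
        refine LinearMap.ext fun x => ?_
        exact a.symm_apply_apply x
      rw [this, Submodule.map_id]
    rintro a (⟨h1, h2⟩ | ⟨h1, h2⟩)
    · exact Or.inl ⟨h _ _ _ h1, h _ _ _ h2⟩
    · exact Or.inr ⟨h _ _ _ h2, h _ _ _ h1⟩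

theorem mem_swp {U W : Submodule F V} {g : V ≃ₗ[F] V} : g ∈ swp U W ↔
    (U.map (g : V →ₗ[F] V) = U ∧ W.map (g : V →ₗ[F] V) = W) ∨
    (U.map (g : V →ₗ[F] V) = W ∧ W.map (g : V →ₗ[F] V) = U) := Iff.rfl

/-- `V = ⊕ N ^ i M` with lifts of the automorphisms of `M` and the element `h` -/
structure Full (N : V →ₗ[F] V) (k : ℕ) (M : Submodule F V) (lft : (M ≃ₗ[F] M) →* (V ≃ₗ[F] V)) (h : V ≃ₗ[F] V) :
    Prop where
  ind : ∀ {p : V → Prop}, p 0 → (∀ x y, p x → p y → p (x + y)) → (∀ (i : ℕ) (x : M), p ((N ^ i) x)) → ∀ v, p v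
  lft : ∀ (a : M ≃ₗ[F] M) (i : ℕ) (x : M), lft a ((N ^ i) (x : V)) = (N ^ i) (a x : V)
  h : ∀ (i : ℕ) (x : M), h ((N ^ i) (x : V)) = (-1 : F) ^ i • (N ^ i) (x : V)

theorem exists_full [FiniteDimensional F V] (hS : Std B N k M) (htop : LinearMap.range (Phi N k M) = ⊤) :
    finrank F V = (k + 1) * finrank F M ∧ ∃ lft h, Full N k M lft h := by
  let e : (Fin (k + 1) → M) ≃ₗ[F] V := LinearEquiv.ofBijective (Phi N k M) ⟨hS.injective, LinearMap.range_eq_top.1 htop⟩
  have he : ∀ (i : Fin (k + 1)) (x : M), e (Pi.single i x) = (N ^ (i : ℕ)) (x : V) := fun i x => Phi_single N k M i x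
  have he' : ∀ (i : Fin (k + 1)) (x : M), e.symm ((N ^ (i : ℕ)) (x : V)) = Pi.single i x := fun i x => by
    rw [← he, LinearEquiv.symm_apply_apply]
  refine ⟨?_, ?_⟩
  · rw [← LinearEquiv.finrank_eq e, Module.finrank_pi_fintype, Finset.sum_const, Finset.card_univ, Fintype.card_fin, smul_eq_mul]
  let lft : (M ≃ₗ[F] M) →* (V ≃ₗ[F] V) :=
    { toFun := fun a => e.symm ≪≫ₗ LinearEquiv.piCongrRight (fun _ => a) ≪≫ₗ e
      map_one' := by
        refine LinearEquiv.ext fun v => ?_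
        exact e.apply_symm_apply v
      map_mul' := fun a b => by
        refine LinearEquiv.ext fun v => ?_
        show e _ = e _
        congr 1
        show _ = (LinearEquiv.piCongrRight fun _ => a) (e.symm (e _))
        rw [LinearEquiv.symm_apply_apply]
        rfl }
  have hinv : ∀ i : ℕ, ((-1 : F) ^ i) * (-1) ^ i = 1 := fun i => by
    rw [← mul_pow]
    norm_num
  let h : V ≃ₗ[F] V := e.symm ≪≫ₗ LinearEquiv.piCongrRight (fun i : Fin (k + 1) =>
    LinearEquiv.smulOfUnit ((-1 : Fˣ) ^ (i : ℕ))) ≪≫ₗ e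
  refine ⟨lft, h, ⟨?_, ?_, ?_⟩⟩
  · intro p h0 hadd hN v
    have h1 : v ∈ LinearMap.range (Phi N k M) := by
      rw [htop]
      exact Submodule.mem_top
    obtain ⟨f, rfl⟩ := h1
    rw [Phi_apply]
    exact Finset.sum_induction _ p hadd h0 fun i _ => hN i (f i)
  · intro a i x
    rcases Nat.lt_or_ge k i with hi | hi
    · rw [pow_zero_of_lt hS.nil hi, pow_zero_of_lt hS.nil hi, map_zero]
    · show e (LinearEquiv.piCongrRight (fun _ => a) (e.symm ((N ^ i) (x : V)))) = _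
      have h1 : LinearEquiv.piCongrRight (fun _ : Fin (k + 1) => a) (Pi.single ⟨i, by omega⟩ x) =
          Pi.single (⟨i, by omega⟩ : Fin (k + 1)) (a x) := by
        funext j
        rw [LinearEquiv.piCongrRight_apply]
        by_cases hj : j = ⟨i, by omega⟩
        · subst hj
          rw [Pi.single_eq_same, Pi.single_eq_same]
        · rw [Pi.single_eq_of_ne hj, Pi.single_eq_of_ne hj, map_zero]
      rw [he' ⟨i, by omega⟩ x, h1, he]
  · intro i x
    rcases Nat.lt_or_ge k i with hi | hi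
    · rw [pow_zero_of_lt hS.nil hi, map_zero, smul_zero]
    · show e (LinearEquiv.piCongrRight (fun i : Fin (k + 1) => LinearEquiv.smulOfUnit ((-1 : Fˣ) ^ (i : ℕ)))
        (e.symm ((N ^ i) (x : V)))) = _
      have h1 : LinearEquiv.piCongrRight (fun i : Fin (k + 1) => LinearEquiv.smulOfUnit (M := M) ((-1 : Fˣ) ^ (i : ℕ)))
          (Pi.single ⟨i, by omega⟩ x) = Pi.single (⟨i, by omega⟩ : Fin (k + 1)) ((-1 : F) ^ i • x) := by
        funext j
        rw [LinearEquiv.piCongrRight_apply]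
        by_cases hj : j = ⟨i, by omega⟩
        · subst hj
          rw [Pi.single_eq_same, Pi.single_eq_same]
          show ((-1 : Fˣ) ^ i) • x = _
          rw [Units.smul_def]
          push_cast
          rfl
        · rw [Pi.single_eq_of_ne hj, Pi.single_eq_of_ne hj, map_zero]
      rw [he' ⟨i, by omega⟩ x, h1, he, ← map_smul]
      rfl

/-- the form on `M` -/
def bet (B : V →ₗ[F] V →ₗ[F] F) (N : V →ₗ[F] V) (k : ℕ) (M : Submodule F V) : M →ₗ[F] M →ₗ[F] F :=
  B.compl₁₂ M.subtype ((N ^ k) ∘ₗ M.subtype)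

theorem bet_apply (x y : M) : bet B N k M x y = B x ((N ^ k) (y : V)) := rfl

theorem Std.bet_symm (hS : Std B N k M) {ε : F} (hB : ∀ x y, B x y = ε * B y x) (x y : M) :
    bet B N k M x y = (ε * (-1) ^ k) * bet B N k M y x := by
  rw [bet_apply, bet_apply, hB, skew_pow hS.skew]
  ring

theorem Std.bet_nondeg (hS : Std B N k M) (x : M) (h : ∀ y, bet B N k M x y = 0) : x = 0 :=
  Subtype.ext (hS.nd x x.2 fun y hy => h ⟨y, hy⟩)

end

section

variable {B : V →ₗ[F] V →ₗ[F] F} {N : V →ₗ[F] V} {k : ℕ} {M : Submodule F V} {lft : (M ≃ₗ[F] M) →* (V ≃ₗ[F] V)}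
  {h : V ≃ₗ[F] V} (hf : Full N k M lft h)

include hf

theorem Full.ext {W : Type*} [AddCommGroup W] [Module F W] {f g : V →ₗ[F] W}
    (hfg : ∀ (i : ℕ) (x : M), f ((N ^ i) (x : V)) = g ((N ^ i) (x : V))) : f = g := by
  refine LinearMap.ext fun v => ?_
  refine hf.ind (p := fun v => f v = g v) ?_ ?_ hfg v
  · rw [map_zero, map_zero]
  · intro x y hx hy
    rw [map_add, map_add, hx, hy]

theorem Full.ext' {f g : V ≃ₗ[F] V}
    (hfg : ∀ (i : ℕ) (x : M), f ((N ^ i) (x : V)) = g ((N ^ i) (x : V))) : f = g := by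
  have h1 : (f : V →ₗ[F] V) = g := hf.ext hfg
  exact LinearEquiv.toLinearMap_injective h1

theorem Full.lft_N (a : M ≃ₗ[F] M) (v : V) : N (lft a v) = lft a (N v) := by
  have h1 : N ∘ₗ (lft a : V →ₗ[F] V) = (lft a : V →ₗ[F] V) ∘ₗ N := by
    refine hf.ext fun i x => ?_
    show N (lft a ((N ^ i) (x : V))) = lft a (N ((N ^ i) (x : V)))
    have h2 : ∀ y : V, N ((N ^ i) y) = (N ^ (i + 1)) y := fun y => by rw [pow_succ']; rfl
    rw [hf.lft, h2, h2, hf.lft]
  exact LinearMap.congr_fun h1 v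

theorem Full.h_N (v : V) : N (h v) = - h (N v) := by
  have h1 : N ∘ₗ (h : V →ₗ[F] V) = - ((h : V →ₗ[F] V) ∘ₗ N) := by
    refine hf.ext fun i x => ?_
    show N (h ((N ^ i) (x : V))) = - h (N ((N ^ i) (x : V)))
    have h2 : ∀ y : V, N ((N ^ i) y) = (N ^ (i + 1)) y := fun y => by rw [pow_succ']; rfl
    rw [hf.h, map_smul, h2, hf.h, pow_succ (-1 : F) i, mul_neg_one, neg_smul, neg_neg]
  exact LinearMap.congr_fun h1 v

theorem Full.h_h (v : V) : h (h v) = v := by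
  have h1 : (h : V →ₗ[F] V) ∘ₗ (h : V →ₗ[F] V) = LinearMap.id := by
    refine hf.ext fun i x => ?_
    show h (h ((N ^ i) (x : V))) = (N ^ i) (x : V)
    rw [hf.h, map_smul, hf.h, smul_smul, ← mul_pow]
    norm_num
  exact LinearMap.congr_fun h1 v

theorem Full.h_lft (a : M ≃ₗ[F] M) (v : V) : h (lft a v) = lft a (h v) := by
  have h1 : (h : V →ₗ[F] V) ∘ₗ (lft a : V →ₗ[F] V) = (lft a : V →ₗ[F] V) ∘ₗ (h : V →ₗ[F] V) := by
    refine hf.ext fun i x => ?_
    show h (lft a ((N ^ i) (x : V))) = lft a (h ((N ^ i) (x : V)))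
    rw [hf.lft, hf.h, hf.h, map_smul, hf.lft]
  exact LinearMap.congr_fun h1 v

theorem Full.h_M (x : M) : h (x : V) = x := by
  have h1 := hf.h 0 x
  rw [pow_zero, pow_zero, one_smul] at h1
  exact h1

theorem Full.lft_M (a : M ≃ₗ[F] M) (x : M) : lft a (x : V) = a x := by
  have h1 := hf.lft a 0 x
  rw [pow_zero] at h1
  exact h1

/-- bilinear extension -/
theorem Full.form_ext {f g : V ≃ₗ[F] V} {s : F}
    (hfg : ∀ (i j : ℕ) (x y : M), B (f ((N ^ i) (x : V))) (g ((N ^ j) (y : V))) =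
      s * B ((N ^ i) (x : V)) ((N ^ j) (y : V))) (v w : V) : B (f v) (g w) = s * B v w := by
  refine hf.ind (p := fun v => B (f v) (g w) = s * B v w) ?_ ?_ ?_ v
  · simp
  · intro x y hx hy
    rw [map_add, map_add, LinearMap.add_apply, hx, hy, map_add, LinearMap.add_apply]
    ring
  · intro i x
    refine hf.ind (p := fun w => B (f ((N ^ i) (x : V))) (g w) = s * B ((N ^ i) (x : V)) w) ?_ ?_ ?_ w
    · simp
    · intro y z hy hz
      rw [map_add, map_add, hy, hz, map_add]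
      ring
    · intro j y
      exact hfg i j x y

theorem Full.lft_form (hS : Std B N k M) {a : M ≃ₗ[F] M} {s : F}
    (ha : ∀ x y, bet B N k M (a x) (a y) = s * bet B N k M x y) (v w : V) : B (lft a v) (lft a w) = s * B v w := by
  refine hf.form_ext (fun i j x y => ?_) v w
  rw [hf.lft, hf.lft]
  by_cases hij : i + j = k
  · rw [hS.form' _ _ _ _ hij, hS.form' _ _ _ _ hij]
    have h1 := ha x y
    rw [bet_apply, bet_apply] at h1
    rw [h1]
    ring
  · rw [hS.form (a x).2 (a y).2 _ _ hij, hS.form x.2 y.2 _ _ hij, mul_zero]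

theorem Full.h_form (hS : Std B N k M) (v w : V) : B (h v) (h w) = (-1) ^ k * B v w := by
  refine hf.form_ext (fun i j x y => ?_) v w
  rw [hf.h, hf.h, map_smul, map_smul, LinearMap.smul_apply, smul_eq_mul, smul_eq_mul]
  by_cases hij : i + j = k
  · rw [← mul_assoc, ← pow_add, add_comm j i, hij]
  · rw [hS.form x.2 y.2 _ _ hij]
    ring

/-- an element commuting with `N` and preserving `M` is a lift -/
theorem Full.eq_lft {g : V ≃ₗ[F] V} (hg : Th N g 1) {a : M ≃ₗ[F] M} (ha : ∀ x : M, (a x : V) = g x) : g = lft a := by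
  refine hf.ext' fun i x => ?_
  have h1 := hg.pow i (x : V)
  rw [one_pow, one_smul] at h1
  rw [hf.lft, ha, h1]

/-- an element anticommuting with `N` and preserving `M` -/
theorem Full.eq_h_lft {g : V ≃ₗ[F] V} (hg : Th N g (-1)) {a : M ≃ₗ[F] M} (ha : ∀ x : M, (a x : V) = g x) :
    g = h * lft a := by
  refine hf.ext' fun i x => ?_
  have h1 := hg.pow i (x : V)
  show g ((N ^ i) (x : V)) = h (lft a ((N ^ i) (x : V)))
  rw [hf.lft, hf.h, ha, h1, smul_smul, ← mul_pow]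
  norm_num

end

end Cfsg.Agent.H904.FR
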