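import Cfsg.Agent.H904.FR.Cayley
import Cfsg.Agent.GpLn.Rank

/-!
# The structure of the top block of a nilpotent skew element (helper904, S4970, piece UNI)

`N` skew for `B`, `N ^ (k+1) = 0`, `N ^ k ≠ 0`, `P` a 2-group of isometries which commute or anticommute with `N`. There
is a `P`-invariant complement `M` of `ker N ^ k` such that `B x (N ^ j y) = 0` for `x y ∈ M` and `j ≠ k`.
-/

set_option autoImplicit false

universe u

namespace Cfsg.Agent.H904.FR

open Cfsg Cfsg.Agent.H955.FS Cfsg.Agent.H721.FR Cfsg.Agent.H721.SR Module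

variable {F V : Type u} [Field F] [AddCommGroup V] [Module F V]

/-- `N g = θ g N` -/
def Th (N : V →ₗ[F] V) (g : V ≃ₗ[F] V) (θ : F) : Prop := ∀ x, N (g x) = θ • g (N x)

theorem Th.pow {N : V →ₗ[F] V} {g : V ≃ₗ[F] V} {θ : F} (h : Th N g θ) (j : ℕ) (x : V) :
    (N ^ j) (g x) = θ ^ j • g ((N ^ j) x) := by
  induction j generalizing x with
  | zero => simp
  | succ j ih =>
    rw [pow_succ, Module.End.mul_apply, h, map_smul, ih, smul_smul, pow_succ', Module.End.mul_apply]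

theorem skew_pow {B : V →ₗ[F] V →ₗ[F] F} {N : V →ₗ[F] V} (hs : ∀ x y, B (N x) y = - B x (N y)) (j : ℕ) (x y : V) :
    B ((N ^ j) x) y = (-1) ^ j * B x ((N ^ j) y) := by
  induction j generalizing x y with
  | zero => simp
  | succ j ih =>
    have e1 : (N ^ (j + 1)) x = (N ^ j) (N x) := by rw [pow_succ]; rfl
    have e2 : (N ^ (j + 1)) y = N ((N ^ j) y) := by rw [pow_succ']; rfl
    rw [e1, e2, ih, hs, pow_succ]
    ring

theorem pow_zero_of_lt {N : V →ₗ[F] V} {k : ℕ} (hN : N ^ (k + 1) = 0) {j : ℕ} (hj : k < j) (x : V) :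
    (N ^ j) x = 0 := by
  rw [pow_eq_zero_of_le hj hN]
  rfl

/-- partial orthogonality -/
structure Good (B : V →ₗ[F] V →ₗ[F] F) (N : V →ₗ[F] V) (P : Subgroup (V ≃ₗ[F] V)) (k m : ℕ) (M : Submodule F V) :
    Prop where
  inv : ∀ g ∈ P, ∀ x ∈ M, g x ∈ M
  compl : IsCompl (LinearMap.ker (N ^ k)) M
  orth : ∀ x ∈ M, ∀ y ∈ M, ∀ j, m ≤ j → j < k → B x ((N ^ j) y) = 0

section

variable {B : V →ₗ[F] V →ₗ[F] F} {N : V →ₗ[F] V} {P : Subgroup (V ≃ₗ[F] V)} {k m : ℕ} {ε : F}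

/-- nondegeneracy of `B x (N ^ k y)` on `M` -/
theorem nd_of_compl (hnd : ∀ x, (∀ y, B x y = 0) → x = 0) (hs : ∀ x y, B (N x) y = - B x (N y))
    {M : Submodule F V} (hM : IsCompl (LinearMap.ker (N ^ k)) M) {x : V} (hx : x ∈ M)
    (h : ∀ y ∈ M, B x ((N ^ k) y) = 0) : x = 0 := by
  have h1 : (N ^ k) x = 0 := by
    apply hnd
    intro v
    have h2 : v ∈ LinearMap.ker (N ^ k) ⊔ M := by
      rw [hM.sup_eq_top]
      exact Submodule.mem_top
    obtain ⟨w, hw, y, hy, rfl⟩ := Submodule.mem_sup.1 h2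
    rw [skew_pow hs, map_add, LinearMap.mem_ker.1 hw, zero_add, h y hy, mul_zero]
  exact Submodule.disjoint_def.1 hM.disjoint x (LinearMap.mem_ker.2 h1) hx

theorem Good.step [FiniteDimensional F V] (h2 : (2 : F) ≠ 0) (hε : ε * ε = 1) (hB : ∀ x y, B x y = ε * B y x)
    (hnd : ∀ x, (∀ y, B x y = 0) → x = 0) (hs : ∀ x y, B (N x) y = - B x (N y)) (hN : N ^ (k + 1) = 0)
    (hPB : P ≤ Isom B) (hPN : ∀ g ∈ P, ∃ θ : F, θ * θ = 1 ∧ Th N g θ) (hm : m < k)
    {M : Submodule F V} (hM : Good B N P k (m + 1) M) : ∃ M' : Submodule F V, Good B N P k m M' := by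
  -- symmetry
  have hsym : ∀ (j : ℕ) (x y : V), B x ((N ^ j) y) = ε * (-1) ^ j * B y ((N ^ j) x) := by
    intro j x y
    rw [hB, skew_pow hs]
    ring
  let L : ℕ → M →ₗ[F] (M →ₗ[F] F) := fun j => (B.compl₁₂ M.subtype ((N ^ j) ∘ₗ M.subtype)).flip
  have hL : ∀ j (x y : M), L j y x = B x ((N ^ j) y) := fun j x y => rfl
  have hinj : Function.Injective (L k) := by
    rw [injective_iff_map_eq_zero]
    intro y hy
    apply Subtype.ext
    refine nd_of_compl hnd hs hM.compl y.2 fun x hx => ?_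
    have h3 := LinearMap.congr_fun hy ⟨x, hx⟩
    rw [hL] at h3
    rw [hsym]
    have h4 : B x ((N ^ k) (y : V)) = 0 := h3
    rw [h4, mul_zero]
  have hbij : Function.Bijective (L k) :=
    ⟨hinj, (LinearMap.injective_iff_surjective_of_finrank_eq_finrank
      (Subspace.dual_finrank_eq (K := F) (V := M)).symm).1 hinj⟩
  let e := LinearEquiv.ofBijective (L k) hbij
  let φ : M →ₗ[F] M := e.symm.toLinearMap ∘ₗ ((-(2 : F)⁻¹) • L m)
  have hφ : ∀ x y : M, B x ((N ^ k) (φ y : V)) = -(2 : F)⁻¹ * B x ((N ^ m) y) := by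
    intro x y
    have h3 : e (φ y) = (-(2 : F)⁻¹) • L m y := by
      show e (e.symm ((-(2 : F)⁻¹) • L m y)) = _
      rw [LinearEquiv.apply_symm_apply]
    exact LinearMap.congr_fun h3 x
  obtain ⟨r, hr⟩ : ∃ r, m + r = k := ⟨k - m, by omega⟩
  have hr1 : 0 < r := by omega
  let f : M →ₗ[F] V := M.subtype + (N ^ r) ∘ₗ M.subtype ∘ₗ φ
  have hf : ∀ x : M, f x = x + (N ^ r) (φ x : V) := fun x => rfl
  have hkr : ∀ x : V, (N ^ k) ((N ^ r) x) = 0 := by
    intro x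
    rw [← Module.End.mul_apply, ← pow_add]
    exact pow_zero_of_lt hN (by omega) x
  have hpp : ∀ (a b : ℕ) (x : V), (N ^ a) ((N ^ b) x) = (N ^ (a + b)) x := by
    intro a b x
    rw [← Module.End.mul_apply, ← pow_add]
  refine ⟨LinearMap.range f, ?_, ⟨?_, ?_⟩, ?_⟩
  · -- invariance
    rintro g hg _ ⟨x, rfl⟩
    obtain ⟨θ, hθ, hgN⟩ := hPN g hg
    have hpow : ∀ j : ℕ, θ ^ j * θ ^ j = 1 := fun j => by rw [← mul_pow, hθ, one_pow]
    refine ⟨⟨g x, hM.inv g hg x x.2⟩, ?_⟩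
    rw [hf, hf, map_add]
    congr 1
    -- the key identity
    have h3 : (φ ⟨g x, hM.inv g hg x x.2⟩ : V) = θ ^ r • g (φ x : V) := by
      have h4 : φ ⟨g x, hM.inv g hg x x.2⟩ = θ ^ r • (⟨g (φ x : V), hM.inv g hg _ (φ x).2⟩ : M) := by
        apply hinj
        refine LinearMap.ext fun y => ?_
        rw [hL, hL, hφ]
        show -(2 : F)⁻¹ * B y ((N ^ m) (g x)) = B y ((N ^ k) (θ ^ r • g (φ x : V)))
        have hyy : (y : V) = g (g⁻¹ (y : V)) := (g.apply_symm_apply (y : V)).symm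
        have h5 : ∀ v : V, B y (g v) = B (g⁻¹ (y : V)) v := by
          intro v
          conv_lhs => rw [hyy]
          exact mem_isom.1 (hPB hg) _ _
        rw [map_smul, hgN.pow, hgN.pow, map_smul, map_smul, map_smul, h5, h5]
        have h6 := hφ ⟨g⁻¹ (y : V), hM.inv _ (inv_mem hg) _ y.2⟩ x
        change B (g⁻¹ (y : V)) ((N ^ k) (φ x : V)) = -(2 : F)⁻¹ * B (g⁻¹ (y : V)) ((N ^ m) x) at h6
        rw [h6, ← hr, pow_add]
        simp only [smul_eq_mul]
        linear_combination (-(2 : F)⁻¹ * B (g⁻¹ (y : V)) ((N ^ m) x) * θ ^ m) * (-hpow r)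
      exact congrArg Subtype.val h4
    rw [h3, map_smul, hgN.pow, smul_smul, hpow, one_smul]
  · -- disjoint
    rw [Submodule.disjoint_def]
    rintro _ hx ⟨x, rfl⟩
    rw [LinearMap.mem_ker, hf, map_add, hkr, add_zero] at hx
    have h3 : (x : V) = 0 := Submodule.disjoint_def.1 hM.compl.disjoint x (LinearMap.mem_ker.2 hx) x.2
    have h4 : x = 0 := Subtype.ext h3
    rw [h4, map_zero]
  · -- codisjoint
    rw [codisjoint_iff, eq_top_iff]
    intro v _
    have h3 : v ∈ LinearMap.ker (N ^ k) ⊔ M := by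
      rw [hM.compl.sup_eq_top]
      exact Submodule.mem_top
    obtain ⟨w, hw, y, hy, rfl⟩ := Submodule.mem_sup.1 h3
    refine Submodule.mem_sup.2 ⟨w - (N ^ r) (φ ⟨y, hy⟩ : V), ?_, f ⟨y, hy⟩, ⟨_, rfl⟩, ?_⟩
    · rw [LinearMap.mem_ker, map_sub, LinearMap.mem_ker.1 hw, hkr, sub_zero]
    · rw [hf]
      abel
  · -- orthogonality
    rintro _ ⟨x, rfl⟩ _ ⟨y, rfl⟩ j hmj hjk
    rw [hf, hf, map_add]
    rcases Nat.eq_or_lt_of_le hmj with hj | hj
    · subst hj
      rw [map_add, map_add, LinearMap.add_apply, LinearMap.add_apply, hpp, skew_pow hs, skew_pow hs, hpp, hpp,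
        add_comm r m, hr, hφ, hsym k (φ x : V) y, hφ, hsym m (y : V) x,
        pow_zero_of_lt hN (show k < r + k by omega), map_zero]
      have h3 : ((-1 : F)) ^ r * (-1) ^ k * (-1) ^ m = 1 := by
        rw [← pow_add, ← pow_add, show r + k + m = 2 * k by omega, pow_mul]
        norm_num
      have h4 : (2 : F) * 2⁻¹ = 1 := mul_inv_cancel₀ h2
      linear_combination (-(2 : F)⁻¹ * B x ((N ^ m) y)) * (ε * ε * h3 + hε) - B x ((N ^ m) y) * h4
    · rw [map_add, hpp, pow_zero_of_lt hN (show k < j + r by omega), add_zero, LinearMap.add_apply, skew_pow hs, hpp,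
        pow_zero_of_lt hN (show k < r + j by omega), map_zero, mul_zero, add_zero]
      exact hM.orth x x.2 y y.2 j hj hjk

/-- the standard structure -/
structure Std (B : V →ₗ[F] V →ₗ[F] F) (N : V →ₗ[F] V) (k : ℕ) (M : Submodule F V) : Prop where
  skew : ∀ x y, B (N x) y = - B x (N y)
  nil : N ^ (k + 1) = 0
  orth : ∀ x ∈ M, ∀ y ∈ M, ∀ j, j ≠ k → B x ((N ^ j) y) = 0
  nd : ∀ x ∈ M, (∀ y ∈ M, B x ((N ^ k) y) = 0) → x = 0

/-- **structure of the top block** -/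
theorem exists_std [Finite F] [FiniteDimensional F V] (h2 : (2 : F) ≠ 0) (hε : ε * ε = 1)
    (hB : ∀ x y, B x y = ε * B y x)
    (hnd : ∀ x, (∀ y, B x y = 0) → x = 0) (hs : ∀ x y, B (N x) y = - B x (N y)) (hN : N ^ (k + 1) = 0)
    (hk : N ^ k ≠ 0) (hcard : (Nat.card P : F) ≠ 0)
    (hPB : P ≤ Isom B) (hPN : ∀ g ∈ P, ∃ θ : F, θ * θ = 1 ∧ Th N g θ) :
    ∃ M : Submodule F V, (∀ g ∈ P, ∀ x ∈ M, g x ∈ M) ∧ M ≠ ⊥ ∧ Std B N k M := by
  have hfin : Finite V := Module.finite_of_finite F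
  have hfinG : Finite (V ≃ₗ[F] V) := Finite.of_injective (fun g : V ≃ₗ[F] V => (g : V → V)) DFunLike.coe_injective
  -- Maschke
  obtain ⟨M₀, hM₀⟩ : ∃ M : Submodule F V, Good B N P k k M := by
    let φ : P →* (V →ₗ[F] V) := (LinearEquiv.automorphismGroup.toLinearMapMonoidHom (R := F) (M := V)).comp P.subtype
    have hφ : ∀ (g : P) (v : V), φ g v = (g : V ≃ₗ[F] V) v := fun g v => rfl
    obtain ⟨M, hM, hc⟩ := Cfsg.Agent.GpLn.Rank.exists_compl φ hcard (LinearMap.ker (N ^ k)) (by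
      intro g w hw
      obtain ⟨θ, hθ, hgN⟩ := hPN g g.2
      rw [LinearMap.mem_ker] at hw ⊢
      rw [hφ, hgN.pow, hw, map_zero, smul_zero])
    exact ⟨M, fun g hg x hx => hM ⟨g, hg⟩ x hx, hc, fun x _ y _ j h3 h4 => absurd h4 (not_lt.2 h3)⟩
  have hall : ∀ d, d ≤ k → ∃ M : Submodule F V, Good B N P k (k - d) M := by
    intro d
    induction d with
    | zero => exact fun _ => ⟨M₀, hM₀⟩
    | succ d ih =>
      intro hd
      obtain ⟨M, hM⟩ := ih (by omega)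
      have h3 : k - d = (k - (d + 1)) + 1 := by omega
      rw [h3] at hM
      exact hM.step h2 hε hB hnd hs hN hPB hPN (by omega)
  obtain ⟨M, hM⟩ := hall k le_rfl
  rw [Nat.sub_self] at hM
  refine ⟨M, hM.inv, ?_, hs, hN, fun x hx y hy j hj => ?_, fun x hx h => nd_of_compl hnd hs hM.compl hx h⟩
  · rintro rfl
    apply hk
    have h3 := hM.compl.sup_eq_top
    rw [sup_bot_eq, LinearMap.ker_eq_top] at h3
    exact h3
  · rcases lt_or_gt_of_ne hj with h3 | h3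
    · exact hM.orth x hx y hy j (Nat.zero_le _) h3
    · rw [pow_zero_of_lt hN h3, map_zero]

end

end Cfsg.Agent.H904.FR
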